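import Cfsg.Agent.H91.Layer
import Cfsg.Agent.H94.Constr
import Cfsg.Agent.S5089

/-! The layer of a saturated fusion system with trivial core is the direct product of the
components. -/

set_option autoImplicit false

namespace Cfsg.Agent.PFM

open Cfsg Cfsg.FusionSystem Cfsg.Agent.H91

variable {Ω : Type*} [Group Ω] {S R : Subgroup Ω} {F : FusionSystem S} {E : FusionSystem R}
  {p : ℕ}

/-- The subgroups carrying a component. -/
def Ix (F : FusionSystem S) (p : ℕ) : Type _ :=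
  {V : Subgroup Ω // ∃ C : FusionSystem V, C.IsComponentIn F p}

/-- The product of the other factors. -/
def Uo (i : Ix F p) : Subgroup Ω := ⨆ (k : Ix F p) (_ : k ≠ i), k.1

theorem le_Uo {i k : Ix F p} (h : k ≠ i) : k.1 ≤ Uo i :=
  le_iSup₂_of_le (f := fun (k : Ix F p) (_ : k ≠ i) => k.1) k h le_rfl

variable [Finite S] [Fact p.Prime] (hS : IsPGroup p S) (h0 : F.core = ⊥)
include hS h0

theorem core_eq_bot {V : Subgroup Ω} {C : FusionSystem V} (hC : C.IsSubnormalIn F p) :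
    C.core = ⊥ := eq_bot_iff.2 ((core_le_core_of_subnormal hS hC).trans h0.le)

theorem exists_comp {V : Subgroup Ω} {D : FusionSystem V} (hD : D.IsNormalIn F p) (hV : V ≠ ⊥) :
    ∃ (W : Subgroup Ω) (C : FusionSystem W), C.IsComponentIn D p := by
  have := finite_of_le (H92.normalIn_le hD)
  refine H94.exists_component_of_not_constrained (hS.to_le (H92.normalIn_le hD))
    (H92.normalIn_sat_left hD) ?_
  rintro ⟨-, Q, h1, h2⟩
  have h3 : Q = ⊥ := eq_bot_iff.2 ((le_core h1).trans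
    (core_eq_bot hS h0 (subnormal_of_normal hD)).le)
  subst h3
  refine hV (eq_bot_iff.2 fun x hx => h2.2 ⊥ (isConj_refl D bot_le) ⟨hx, fun y hy => ?_⟩)
  rw [SetLike.mem_coe, Subgroup.mem_bot] at hy
  rw [hy, one_mul, mul_one]

theorem no_sc_abelian {V : Subgroup Ω} {C : FusionSystem V} (hC : C.IsSubnormalIn F p)
    (hs : C.IsSaturated p) {Q : Subgroup Ω} (h1 : IsMulCommutative Q) (h2 : C.StronglyClosed Q) :
    Q = ⊥ := by
  have := finite_of_le (subnormal_le hC)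
  by_contra hne
  exact (S5089.result p (hS.to_le (subnormal_le hC)) C hs).2 ⟨Q, hne, h1, h2⟩
    (core_eq_bot hS h0 hC)

variable (hE : E.IsLayerOf F p)
include hE

omit h0 in
theorem comp_cp {V : Subgroup Ω} {C : FusionSystem V} (hC : C.IsComponentIn F p) :
    IsCP C (centSys E C p (H92.normalIn_le (component_normal_layer hS hC hE))) E :=
  have := finite_of_le (H92.normalIn_le hE.1)
  layer_isCP (hS.to_le (H92.normalIn_le hE.1)) (layer_self hS hE) (component_normal_layer hS hC hE)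

theorem comp_disj {V : Subgroup Ω} {C : FusionSystem V} (hC : C.IsComponentIn F p) :
    V ⊓ centE E C = ⊥ :=
  eq_bot_iff.2 ((le_core (normal_of_central (comp_cp hS hE hC).data.cen₁)).trans
    (core_eq_bot hS h0 hC.1).le)

theorem comp_le_cent {V W : Subgroup Ω} {C : FusionSystem V} {D : FusionSystem W}
    (hC : C.IsComponentIn F p) (hD : D.IsComponentIn F p) (hne : W ≠ V) : W ≤ centE E C := by
  have hR := H92.normalIn_le hE.1
  have := finite_of_le hR
  refine (component_or_le_centE (hS.to_le hR) (component_layer hS hE hD)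
    (component_normal_layer hS hC hE)).resolve_left fun h1 => ?_
  rcases component_or_le_centE (hS.to_le hR) (component_layer hS hE hC)
    (component_normal_layer hS hD hE) with h2 | h2
  · exact hne (le_antisymm (subnormal_le h1.1) (subnormal_le h2.1))
  · have := finite_of_le (subnormal_le hD.1)
    exact quasisimple_ne_bot hD.2 (eq_bot_iff.2 ((le_inf le_rfl
      ((subnormal_le h1.1).trans h2)).trans (comp_disj hS h0 hE hD).le))

theorem layer_gen : R ≤ ⨆ i : Ix F p, i.1 := by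
  classical
  have hR := H92.normalIn_le hE.1
  have := finite_of_le hR
  have hfin : Finite (Ix F p) := Finite.of_injective
    (fun i : Ix F p => i.1.subgroupOf S) fun i j e => Subtype.ext (by
      obtain ⟨C, hC⟩ := i.2
      obtain ⟨D, hD⟩ := j.2
      exact Subgroup.subgroupOf_inj.1 e |> fun e => by
        rwa [inf_eq_left.2 (subnormal_le hC.1), inf_eq_left.2 (subnormal_le hD.1)] at e)
  have key : ∀ s : Finset (Ix F p), ∃ (W : Subgroup Ω) (D : FusionSystem W),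
      D.IsNormalIn E p ∧ W = ⨆ i ∈ s, i.1 := fun s => by
    induction s using Finset.induction_on with
    | empty => exact ⟨⊥, _, inner_isNormalIn (hS.to_le hR) (H92.normalIn_sat_left hE.1)
        (normal_bot E), by simp⟩
    | insert i s hi ih =>
      obtain ⟨W, D, hD, e⟩ := ih
      obtain ⟨C, hC⟩ := i.2
      have h1 : W ≤ centE E C := e.le.trans (iSup₂_le fun j hj => by
        obtain ⟨C', hC'⟩ := j.2
        exact comp_le_cent hS h0 hE hC hC' fun e => hi (Subtype.ext e ▸ hj))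
      obtain ⟨D', hD'⟩ := exists_normal_of_comm (hS.to_le hR) (component_normal_layer hS hC hE) hD
        fun a ha b hb => (comp_cp hS hE hC).data.comm a ha b (h1 hb)
      exact ⟨_, D', hD', by rw [Finset.iSup_insert, e]⟩
  have := Fintype.ofFinite (Ix F p)
  obtain ⟨W, D, hD, e⟩ := key Finset.univ
  refine (le_of_isSubsystemOf (layer_le (hS.to_le hR) (layer_self hS hE) hD.1
    fun V C hC => ?_)).trans (e.le.trans (iSup₂_le fun i _ => le_iSup (fun i : Ix F p => i.1) i))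
  rw [e]
  exact le_iSup₂_of_le (f := fun (i : Ix F p) (_ : i ∈ Finset.univ) => i.1)
    ⟨V, C, component_trans hC (subnormal_of_normal hE.1)⟩ (Finset.mem_univ _) le_rfl

theorem Uo_le {i : Ix F p} {C : FusionSystem i.1} (hC : C.IsComponentIn F p) : Uo i ≤ centE E C :=
  iSup₂_le fun k hk => by
    obtain ⟨D, hD⟩ := k.2
    exact comp_le_cent hS h0 hE hC hD fun e => hk (Subtype.ext e)

theorem layer_dec (i : Ix F p) {x : Ω} (hx : x ∈ R) : ∃ a ∈ i.1, ∃ b ∈ Uo i, a * b = x := by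
  obtain ⟨C, hC⟩ := i.2
  refine ((comp_cp hS hE hC).data.mem_sup le_rfl (Uo_le hS h0 hE hC)).1
    (((layer_gen hS h0 hE).trans (iSup_le fun k => ?_)) hx)
  by_cases e : k = i
  · exact e ▸ le_sup_left
  · exact (le_Uo e).trans le_sup_right

theorem Uo_eq {i : Ix F p} {C : FusionSystem i.1} (hC : C.IsComponentIn F p) :
    Uo i = centE E C := by
  refine le_antisymm (Uo_le hS h0 hE hC) fun z hz => ?_
  obtain ⟨a, ha, b, hb, rfl⟩ := layer_dec hS h0 hE i (centE_le E C hz)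
  have h1 : a ∈ i.1 ⊓ centE E C := ⟨ha, (mul_mem_cancel_right (Uo_le hS h0 hE hC hb)).1 hz⟩
  rw [comp_disj hS h0 hE hC, Subgroup.mem_bot] at h1
  rwa [h1, one_mul]

theorem Uo_comm (i : Ix F p) {a b : Ω} (ha : a ∈ i.1) (hb : b ∈ Uo i) : a * b = b * a := by
  obtain ⟨C, hC⟩ := i.2
  exact (comp_cp hS hE hC).data.comm a ha b (Uo_le hS h0 hE hC hb)

theorem Uo_disj (i : Ix F p) {x : Ω} (h1 : x ∈ i.1) (h2 : x ∈ Uo i) : x = 1 := by
  obtain ⟨C, hC⟩ := i.2
  exact Subgroup.mem_bot.1 (comp_disj hS h0 hE hC ▸ ⟨h1, Uo_le hS h0 hE hC h2⟩)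

omit h0 [Finite S] [Fact p.Prime] hS in
theorem ix_le (i : Ix F p) : i.1 ≤ R := by
  obtain ⟨C, hC⟩ := i.2
  exact layer_compLe hE _ C hC

omit h0 [Finite S] [Fact p.Prime] hS in
theorem Uo_le_R (i : Ix F p) : Uo i ≤ R := iSup₂_le fun k _ => ix_le hE k

theorem sc_Uo (i : Ix F p) : E.StronglyClosed i.1 ∧ E.StronglyClosed (Uo i) := by
  obtain ⟨C, hC⟩ := i.2
  rw [Uo_eq hS h0 hE hC]
  exact ⟨(comp_cp hS hE hC).sc₁, (comp_cp hS hE hC).sc₂⟩

theorem Uo_inf {x : Ω} (hx : x ∈ R) (h : ∀ i : Ix F p, x ∈ Uo i) : x = 1 := by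
  have h1 : R ⊓ ⨅ i : Ix F p, Uo i ≤ Subgroup.centralizer (R : Set Ω) := fun y hy =>
    Subgroup.le_centralizer_iff.1 (Subgroup.zpowers_le.2 hy |>.trans (Subgroup.le_centralizer_iff.1
      ((layer_gen hS h0 hE).trans (iSup_le fun i a ha b hb =>
        (Uo_comm hS h0 hE i ha (Subgroup.mem_iInf.1 hb.2 i)).symm)))) |> fun h =>
      Subgroup.le_centralizer_iff.1 h (Subgroup.mem_zpowers y)
  have h2 := no_sc_abelian hS h0 (subnormal_of_normal hE.1) (H92.normalIn_sat_left hE.1)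
    (Q := R ⊓ ⨅ i : Ix F p, Uo i) ⟨⟨fun a b => Subtype.ext (h1 b.2 a a.2.1)⟩⟩
    (stronglyClosed_iff.2 ⟨inf_le_left, fun P f hf y hy hy' => ⟨hf.mem hy, Subgroup.mem_iInf.2
      fun i => hf.mem_of_stronglyClosed (sc_Uo hS h0 hE i).2 hy (Subgroup.mem_iInf.1 hy'.2 i)⟩⟩)
  exact Subgroup.mem_bot.1 (h2 ▸ ⟨hx, Subgroup.mem_iInf.2 h⟩)

omit h0 in
theorem exists_im {a : Ω → Ω} (ha : M F R a) (i : Ix F p) : ∃ j : Ix F p, j.1 = im a i.1 := by
  obtain ⟨C, hC⟩ := i.2
  have h1 := ha.restrict (ix_le hE i)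
  obtain ⟨k, hk, -⟩ := H92.gIso_of_M h1
  obtain ⟨C', hC'⟩ := H92.exists_fIso hk C
  exact ⟨⟨_, C', component_conj hS hC h1 hC'⟩, rfl⟩

/-- Maps between subgroups of the layer respect the decomposition up to a permutation. -/
theorem layer_pf {P : Subgroup Ω} {f : Ω → Ω} (hf : M F P f) (hP : P ≤ R) (i : Ix F p) :
    ∃ (Q : Subgroup Ω) (g : Ω → Ω) (j : Ix F p), M F Q g ∧ Nat.card i.1 = Nat.card j.1 ∧ P ≤ Q ∧
      (∀ x ∈ P, g x = f x) ∧ ∀ a ∈ i.1, ∀ b ∈ Uo i, a * b ∈ P →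
        a ∈ Q ∧ b ∈ Q ∧ g a ∈ j.1 ∧ g b ∈ Uo j := by
  obtain ⟨α, f₀, h1, -, h3, h4⟩ := (H92.isInvariantIn_iff.1 (H92.normalIn_inv hE.1)).2.2.2 P f hP hf
  obtain ⟨C, hC⟩ := i.2
  obtain ⟨P₁, P₂, g, p1, p2, p3, hg, e⟩ := (comp_cp hS hE hC).exists_ext h3
  obtain ⟨j, hj⟩ := exists_im hS hE h1 i
  have hU : ∀ b ∈ Uo i, α b ∈ Uo j := fun b hb => by
    have h5 : Uo i ≤ ((Uo j).comap h1.homOn.toHom).map R.subtype := iSup₂_le fun k hk x hx => by
      obtain ⟨l, hl⟩ := exists_im hS hE h1 k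
      refine ⟨⟨x, ix_le hE k hx⟩, le_Uo (k := l) (fun e => hk (Subtype.ext ?_))
        (hl ▸ mem_im_of_mem α hx), rfl⟩
      rw [e, hj] at hl
      exact le_antisymm
        (fun y hy => (h1.apply_mem_im_iff (ix_le hE i) (ix_le hE k hy)).1 (hl ▸ mem_im_of_mem α hy))
        (fun y hy => (h1.apply_mem_im_iff (ix_le hE k) (ix_le hE i hy)).1 (hl ▸ mem_im_of_mem α hy))
    obtain ⟨y, hy, rfl⟩ := h5 hb
    exact hy
  rw [← Uo_eq hS h0 hE hC] at p2
  refine ⟨P₁ ⊔ P₂, fun x => α (g x), j,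
    h1.comp (hg.of_sub (H92.normalIn_sub hE.1)) fun x hx => hg.mem hx,
    by rw [hj, h1.card_im (ix_le hE i)], p3, fun x hx => by rw [h4 x hx, ← e x hx],
    fun a ha b hb hab => ?_⟩
  obtain ⟨a', ha', b', hb', e1⟩ := ((comp_cp hS hE hC).data.mem_sup p1
    (p2.trans (Uo_le hS h0 hE hC))).1 (p3 hab)
  have e2 : a⁻¹ * a' = b * b'⁻¹ := by
    rw [inv_mul_eq_iff_eq_mul, ← mul_assoc, ← e1, mul_inv_cancel_right]
  have e3 := Uo_disj hS h0 hE i (mul_mem (inv_mem ha) (p1 ha'))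
    (e2 ▸ mul_mem hb (inv_mem (p2 hb')))
  rw [e3, eq_comm, mul_inv_eq_one] at e2
  rw [inv_mul_eq_one] at e3
  subst e2 e3
  have m1 := Subgroup.mem_sup_left (T := P₂) ha'
  have m2 := Subgroup.mem_sup_right (S := P₁) hb'
  exact ⟨m1, m2, hj ▸ mem_im_of_mem α (hg.mem_of_stronglyClosed (sc_Uo hS h0 hE i).1 m1 ha),
    hU _ (hg.mem_of_stronglyClosed (sc_Uo hS h0 hE i).2 m2 hb)⟩

omit h0 in
/-- With a single component, the layer is contained in it. -/
theorem layer_le_comp (h : ∀ i j : Ix F p, i = j) {V : Subgroup Ω} {C : FusionSystem V}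
    (hC : C.IsComponentIn F p) : E.IsSubsystemOf C := by
  have hR := H92.normalIn_le hE.1
  have := finite_of_le hR
  exact layer_le (hS.to_le hR) (layer_self hS hE) (component_normal_layer hS hC hE).1
    fun W D hD => (congrArg Subtype.val
      (h ⟨W, D, component_trans hD (subnormal_of_normal hE.1)⟩ ⟨V, C, hC⟩)).le

omit hE in
theorem comp_simple {V : Subgroup Ω} {C : FusionSystem V} (hC : C.IsComponentIn F p) :
    C.IsSimple p := by
  have hV := subnormal_le hC.1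
  have := finite_of_le hV
  refine ⟨hC.2.1, quasisimple_ne_bot hC.2, fun W D hD => ?_⟩
  rcases quasisimple_weaklyNormal (hS.to_le hV) hC.2 hD.1 with h1 | h1
  · exact Or.inl (eq_bot_iff.2 ((h1.trans (center_le_core C)).trans (core_eq_bot hS h0 hC.1).le))
  · exact Or.inr ⟨le_antisymm (H92.normalIn_le hD) (le_of_isSubsystemOf h1),
      fun P => Set.Subset.antisymm (H92.normalIn_sub hD P) (h1 P)⟩

end Cfsg.Agent.PFM
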